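import Mathlib

/-! Sylow 17- and 19-normalizers in a simple group of order 50232960. -/

namespace Cfsg.Agent.J3X

open Subgroup

variable {G : Type*} [Group G] [Finite G]

theorem gen_prime {p : ℕ} [hp : Fact p.Prime] (P : Sylow p G) (h1 : Nat.card P = p) :
    (P : Subgroup G) ≤ centralizer ((P : Subgroup G) : Set G) ∧
    IsCyclic (normalizer ((P : Subgroup G) : Set G) ⧸ (P : Subgroup G).normalizerMonoidHom.ker) ∧
    ∃ k n : ℕ, (P : Subgroup G).normalizerMonoidHom.ker.index = k ∧ k ∣ p - 1 ∧ n ≡ 1 [MOD p] ∧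
      Nat.card (centralizer ((P : Subgroup G) : Set G)) * k * n = Nat.card G := by
  haveI : IsCyclic (P : Subgroup G) := isCyclic_of_prime_card h1
  haveI : IsCyclic (MulAut (P : Subgroup G)) := by
    have e := IsCyclic.mulAutMulEquiv (P : Subgroup G)
    rw [h1] at e
    exact e.isCyclic.2 inferInstance
  have hinj := QuotientGroup.kerLift_injective (P : Subgroup G).normalizerMonoidHom
  refine ⟨le_centralizer _, isCyclic_of_injective _ hinj, _, Nat.card (Sylow p G), rfl, ?_,
    card_sylow_modEq_one p G, ?_⟩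
  · have := card_dvd_of_injective _ hinj
    rwa [IsCyclic.card_mulAut, h1, Nat.totient_prime hp.out] at this
  · rw [P.card_eq_index_normalizer, normalizerMonoidHom_ker,
      ← Nat.card_congr (subgroupOfEquivOfLe (centralizer_le_normalizer _)).toEquiv,
      card_mul_index]
    exact card_mul_index _

omit [Finite G] in
theorem conv {N : Type*} [Group N] {D K : Subgroup N} [K.Normal] {k : ℕ} (h : D = K)
    (h1 : IsCyclic (N ⧸ K)) (h2 : K.index = k) :
    ∃ _ : D.Normal, IsCyclic (N ⧸ D) ∧ Nat.card (N ⧸ D) = k := by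
  subst h
  exact ⟨inferInstance, h1, h2⟩

theorem syl {G : Type*} [Group G] [Finite G] [IsSimpleGroup G] (hc : Nat.card G = 50232960)
    (hC : ∀ t : G, orderOf t = 2 → Nat.card (Subgroup.centralizer ({t} : Set G)) = 1920)
    (h16 : ∀ x : G, orderOf x ≠ 16)
    (h19 : ∃ a : G, orderOf a = 19 ∧ ∀ g, g * a = a * g → g ∈ Subgroup.zpowers a) :
    (∀ X : Sylow 19 G, Subgroup.centralizer ((X : Subgroup G) : Set G) = X ∧
        ∃ h : ((X : Subgroup G).subgroupOf (Subgroup.normalizer ((X : Subgroup G) : Set G))).Normal,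
          IsCyclic (↥(Subgroup.normalizer ((X : Subgroup G) : Set G)) ⧸ (X : Subgroup G).subgroupOf _) ∧
          Nat.card (↥(Subgroup.normalizer ((X : Subgroup G) : Set G)) ⧸ (X : Subgroup G).subgroupOf _) = 9) ∧
    (∀ Y : Sylow 17 G, Subgroup.centralizer ((Y : Subgroup G) : Set G) = Y ∧
        ∃ h : ((Y : Subgroup G).subgroupOf (Subgroup.normalizer ((Y : Subgroup G) : Set G))).Normal,
          IsCyclic (↥(Subgroup.normalizer ((Y : Subgroup G) : Set G)) ⧸ (Y : Subgroup G).subgroupOf _) ∧
          Nat.card (↥(Subgroup.normalizer ((Y : Subgroup G) : Set G)) ⧸ (Y : Subgroup G).subgroupOf _) = 8) := by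
  haveI f19 : Fact (Nat.Prime 19) := ⟨by norm_num⟩
  haveI f17 : Fact (Nat.Prime 17) := ⟨by norm_num⟩
  have csyl : ∀ (p m : ℕ) [Fact p.Prime] (P : Sylow p G), 50232960 = p * m → ¬ p ∣ m →
      Nat.card P = p := by
    intro p m hp P e hm
    rw [P.card_eq_multiplicity, hc, e, Nat.factorization_mul hp.out.ne_zero (by rintro rfl; simp at hm),
      Finsupp.add_apply, hp.out.factorization_self, Nat.factorization_eq_zero_of_not_dvd hm]
    simp
  have hall : ∀ x : G, orderOf x = 19 → Nat.card (centralizer ({x} : Set G)) = 19 := by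
    obtain ⟨a, ha, hCa⟩ := h19
    have hsyl : ∀ x : G, orderOf x = 19 → ∃ P : Sylow 19 G, (P : Subgroup G) = zpowers x := by
      intro x hx
      obtain ⟨P, hP⟩ := (IsPGroup.of_card (n := 1) (G := zpowers x)
        (by rw [Nat.card_zpowers, hx, pow_one])).exists_le_sylow
      exact ⟨P, (eq_of_le_of_card_ge hP (by
        rw [csyl 19 2643840 P (by norm_num) (by norm_num), Nat.card_zpowers, hx])).symm⟩
    intro x hx
    obtain ⟨P, hP⟩ := hsyl x hx
    obtain ⟨Q, hQ⟩ := hsyl a ha
    obtain ⟨g, hg⟩ := MulAction.exists_smul_eq G P Q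
    have h1 : a ∈ (g • P : Sylow 19 G) := by
      rw [hg]; exact hQ.ge (mem_zpowers a)
    obtain ⟨y, hy, hya⟩ : ∃ y ∈ zpowers x, g * y * g⁻¹ = a := by
      obtain ⟨y, hy, e⟩ := h1
      exact ⟨y, hP ▸ hy, e⟩
    apply le_antisymm
    · rw [← ha, ← Nat.card_zpowers]
      refine Nat.card_le_card_of_injective (fun c : centralizer ({x} : Set G) =>
        (⟨g * c * g⁻¹, hCa _ ?_⟩ : zpowers a)) ?_
      · have hc : Commute x c := c.2 x rfl
        obtain ⟨m, rfl⟩ := hy
        have := (hc.zpow_left m).eq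
        rw [← hya]
        calc g * c * g⁻¹ * (g * x ^ m * g⁻¹) = g * (c * x ^ m) * g⁻¹ := by group
          _ = _ := by rw [← this]; group
      · intro c d h
        have := congrArg Subtype.val h
        exact Subtype.ext (by simpa using this)
    · rw [← hx, ← Nat.card_zpowers]
      exact card_le_of_le (zpowers_le.2 (mem_centralizer_singleton_iff.2 rfl))
  constructor
  · intro X
    have h1 := csyl 19 2643840 X (by norm_num) (by norm_num)
    obtain ⟨a1, a2, k, n, a3, a4, a5, a6⟩ := gen_prime X h1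
    obtain ⟨x, hx⟩ := exists_prime_orderOf_dvd_card' (G := X) 19 h1.symm.dvd
    have h2 : Nat.card (centralizer ((X : Subgroup G) : Set G)) ≤ 19 := by
      exact (card_le_of_le (centralizer_le (Set.singleton_subset_iff.2 x.2))).trans
        (hall x (by rwa [Subgroup.orderOf_coe])).le
    have h3 : centralizer ((X : Subgroup G) : Set G) = X :=
      (eq_of_le_of_card_ge a1 (h2.trans h1.ge)).symm
    refine ⟨h3, conv (by rw [normalizerMonoidHom_ker, h3]) a2 ?_⟩
    rw [a3]
    rw [h3, hc] at a6
    erw [h1] at a6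
    have := Nat.le_of_dvd (by norm_num) a4
    unfold Nat.ModEq at a5
    interval_cases k <;> simp at a4 <;> omega
  · intro Y
    have h1 := csyl 17 2954880 Y (by norm_num) (by norm_num)
    obtain ⟨a1, a2, k, n, a3, a4, a5, a6⟩ := gen_prime Y h1
    have h6 : ∀ x ∈ centralizer ((Y : Subgroup G) : Set G),
        17 ∣ Nat.card (centralizer ({x} : Set G)) := fun x hx => by
      rw [← h1]
      exact card_dvd_of_le fun c hc => mem_centralizer_singleton_iff.2 (hx c hc)
    have h7 : ∀ q : ℕ, q.Prime → (∀ x : G, orderOf x = q →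
        ¬ 17 ∣ Nat.card (centralizer ({x} : Set G))) →
        ¬ q ∣ Nat.card (centralizer ((Y : Subgroup G) : Set G)) := by
      intro q hq h e
      haveI := Fact.mk hq
      obtain ⟨x, hx⟩ := exists_prime_orderOf_dvd_card' q e
      exact h x (by rwa [Subgroup.orderOf_coe]) (h6 x x.2)
    have h8 := h7 2 Nat.prime_two fun x hx => by rw [hC x hx]; norm_num
    have h9 := h7 19 f19.out fun x hx => by rw [hall x hx]; norm_num
    obtain ⟨c, hc1⟩ : 17 ∣ Nat.card (centralizer ((Y : Subgroup G) : Set G)) := by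
      exact h1.symm.dvd.trans (card_dvd_of_le a1)
    have h10 : 17 * c ∣ 17 * 1215 := by
      have := card_subgroup_dvd_card (centralizer ((Y : Subgroup G) : Set G))
      rw [hc, show 50232960 = 17 * 1215 * 2 ^ 7 * 19 from rfl] at this
      rw [← hc1]
      exact ((Nat.prime_two.coprime_iff_not_dvd.2 h8).symm.pow_right 7).dvd_of_dvd_mul_right
        ((f19.out.coprime_iff_not_dvd.2 h9).symm.dvd_of_dvd_mul_right this)
    rw [Nat.mul_dvd_mul_iff_left (by norm_num)] at h10
    have hk1 : k ≠ 1 := by
      rintro rfl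
      rw [index_eq_one, normalizerMonoidHom_ker, subgroupOf_eq_top] at a3
      have hcomp := MonoidHom.ker_transferSylow_isComplement' Y a3
      have hcard := hcomp.card_mul_card
      rcases (MonoidHom.normal_ker (MonoidHom.transferSylow Y a3)).eq_bot_or_eq_top with e | e
      · rw [e, card_bot, hc] at hcard
        erw [h1] at hcard
        omega
      · rw [e, card_top, hc] at hcard
        erw [h1] at hcard
        omega
    have hk16 : k ≠ 16 := by
      rintro rfl
      obtain ⟨u, hu⟩ := a2.exists_ofOrder_eq_natCard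
      obtain ⟨g, rfl⟩ := QuotientGroup.mk'_surjective _ u
      have h11 : 16 ∣ orderOf g := by
        rw [← a3, index, ← hu]; exact orderOf_map_dvd _ g
      exact h16 (g ^ (orderOf g / 16) : normalizer ((Y : Subgroup G) : Set G)) (by
        rw [Subgroup.orderOf_coe]
        exact orderOf_pow_orderOf_div (orderOf_pos g).ne' h11)
    have h12 : c = 1 ∧ k = 8 := by
      rw [hc1, hc] at a6
      have b1 := Nat.le_of_dvd (by norm_num) a4
      have b2 : c ∈ Nat.divisors 1215 := Nat.mem_divisors.2 ⟨h10, by norm_num⟩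
      have b3 : Nat.divisors 1215 = {1, 3, 5, 9, 15, 27, 45, 81, 135, 243, 405, 1215} := by
        decide +kernel
      rw [b3] at b2
      unfold Nat.ModEq at a5
      clear h10 hc1 h8 h9 h7 h6 a3 b3
      simp only [Finset.mem_insert, Finset.mem_singleton] at b2
      interval_cases k <;> simp at a4 <;> rcases b2 with rfl | rfl | rfl | rfl | rfl | rfl | rfl |
        rfl | rfl | rfl | rfl | rfl <;> omega
    have h3 : centralizer ((Y : Subgroup G) : Set G) = Y :=
      (eq_of_le_of_card_ge a1 (by rw [hc1, h12.1]; exact h1.ge)).symm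
    exact ⟨h3, conv (by rw [normalizerMonoidHom_ker, h3]) a2 (a3.trans h12.2)⟩

end Cfsg.Agent.J3X
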